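import Cfsg.Agent.Lib.H28.RelSyl

/-!
# Alperin's fusion theorem (tame intersections)
-/

set_option autoImplicit false
set_option linter.all false

namespace H3.Alperin

open H28.Cj H28.RelSyl

variable {G : Type*} [Group G]

/-- `P ∩ R` is a tame intersection. -/
def Tame (p : ℕ) (P R : Subgroup G) : Prop :=
  ¬ p ∣ (P ⊓ Subgroup.normalizer ((P ⊓ R : Subgroup G) : Set G)).relIndex
      (Subgroup.normalizer ((P ⊓ R : Subgroup G) : Set G)) ∧
  ¬ p ∣ (R ⊓ Subgroup.normalizer ((P ⊓ R : Subgroup G) : Set G)).relIndex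
      (Subgroup.normalizer ((P ⊓ R : Subgroup G) : Set G))

/-- `A` is carried by `g` inside `P` through normalizers of tame intersections. -/
inductive Chain (p : ℕ) (P : Subgroup G) : Set G → G → Prop
  | nil (A : Set G) : A ⊆ P → Chain p P A 1
  | cons (A : Set G) (R : Subgroup G) (x g : G) : IsSyl p R ⊤ → Tame p P R →
      x ∈ Subgroup.normalizer ((P ⊓ R : Subgroup G) : Set G) →
      A ⊆ ((P ⊓ R : Subgroup G) : Set G) → Chain p P ((fun a => x⁻¹ * a * x) '' A) g → Chain p P A (x * g)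

theorem Chain.mono {p : ℕ} {P : Subgroup G} {A : Set G} {g : G} (h : Chain p P A g) :
    ∀ {B : Set G}, B ⊆ A → Chain p P B g := by
  induction h with
  | nil A hA => intro B hB; exact Chain.nil B (hB.trans hA)
  | cons A R x g h1 h2 h3 h4 _ ih =>
    intro B hB
    exact Chain.cons B R x g h1 h2 h3 (hB.trans h4) (ih (Set.image_mono hB))

theorem Chain.trans {p : ℕ} {P : Subgroup G} {A : Set G} {g : G} (h : Chain p P A g) :
    ∀ {k : G}, Chain p P ((fun a => g⁻¹ * a * g) '' A) k → Chain p P A (g * k) := by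
  induction h with
  | nil A hA =>
    intro k hk
    rw [one_mul]
    simpa using hk
  | cons A R x g h1 h2 h3 h4 _ ih =>
    intro k hk
    rw [mul_assoc]
    apply Chain.cons A R x (g * k) h1 h2 h3 h4
    apply ih
    rw [Set.image_image]
    have e1 : (fun a => g⁻¹ * (x⁻¹ * a * x) * g) = (fun a => (x * g)⁻¹ * a * (x * g)) := by
      funext a; group
    rw [e1]
    exact hk

theorem coe_cj_inv (x : G) (H : Subgroup G) :
    ((cj x⁻¹ H : Subgroup G) : Set G) = (fun a => x⁻¹ * a * x) '' (H : Set G) := by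
  ext y
  constructor
  · rintro ⟨z, hz, rfl⟩
    exact ⟨z, hz, by simp⟩
  · rintro ⟨z, hz, rfl⟩
    exact ⟨z, hz, by simp⟩

theorem Chain.trans' {p : ℕ} {P D : Subgroup G} {g k : G} (h : Chain p P D g)
    (h' : Chain p P (cj g⁻¹ D : Subgroup G) k) : Chain p P D (g * k) := by
  apply h.trans
  rwa [coe_cj_inv] at h'

theorem card_lt_of_lt [Finite G] {D E : Subgroup G} (h : D < E) : Nat.card D < Nat.card E :=
  Set.ncard_lt_ncard (s := (D : Set G)) (t := (E : Set G)) h (Set.toFinite _)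

theorem main [Finite G] {p : ℕ} [hp : Fact p.Prime] (P : Subgroup G) (hP : IsSyl p P ⊤) :
    ∀ (k : ℕ) (R : Subgroup G), IsSyl p R ⊤ → Nat.card P ≤ Nat.card (P ⊓ R : Subgroup G) + k →
      ∃ x : G, Chain p P ((P ⊓ R : Subgroup G) : Set G) x ∧ cj x⁻¹ R = P := by
  intro k
  induction k with
  | zero =>
    intro R hR hc
    have h1 : P ⊓ R = P := Subgroup.eq_of_le_of_card_ge inf_le_left (by simpa using hc)
    have h2 : R = P := hP.eq_of_le hR.isPGroup (inf_eq_left.1 h1) le_top
    exact ⟨1, Chain.nil _ inf_le_left, by rw [inv_one, cj_one, h2]⟩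
  | succ k ih =>
    intro R hR hc
    by_cases hne : P ⊓ R = P
    · have h2 : R = P := hP.eq_of_le hR.isPGroup (inf_eq_left.1 hne) le_top
      exact ⟨1, Chain.nil _ inf_le_left, by rw [inv_one, cj_one, h2]⟩
    set D := P ⊓ R with hD
    have hDP : D < P := lt_of_le_of_ne inf_le_left hne
    have hDR : D < R := by
      refine lt_of_le_of_ne inf_le_right ?_
      intro h
      apply hne
      have h2 : R ≤ P := by rw [← h]; exact hDP.le
      have h3 : P = R := hR.eq_of_le hP.isPGroup h2 le_top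
      rw [h, ← h3]
    have IH : ∀ R' : Subgroup G, IsSyl p R' ⊤ → Nat.card D < Nat.card (P ⊓ R' : Subgroup G) →
        ∃ x : G, Chain p P ((P ⊓ R' : Subgroup G) : Set G) x ∧ cj x⁻¹ R' = P := by
      intro R' hR' hlt
      exact ih R' hR' (by omega)
    have hsylcj : ∀ (x : G) (R' : Subgroup G), IsSyl p R' ⊤ → IsSyl p (cj x R') ⊤ := by
      intro x R' h
      have := h.cj x
      rwa [cj_top] at this
    -- step 1
    obtain ⟨T, hT, hT2⟩ := exists_isSyl_ge (p := p) (Q := P ⊓ Subgroup.normalizer (D : Set G))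
      (H := Subgroup.normalizer (D : Set G)) (hP.isPGroup.to_le inf_le_left) inf_le_right
    obtain ⟨S, hS, hTS⟩ := exists_isSyl_ge (p := p) (Q := T) (H := ⊤) hT.isPGroup le_top
    have hlt1 := lt_inf_normalizer_of_isPGroup hP.isPGroup hDP
    have hPS : P ⊓ Subgroup.normalizer (D : Set G) ≤ P ⊓ S := le_inf inf_le_left (hT2.trans hTS)
    obtain ⟨x, hx1, hx2⟩ := IH S hS (lt_of_lt_of_le (card_lt_of_lt hlt1)
      (Nat.le_of_dvd Nat.card_pos (Subgroup.card_dvd_of_le hPS)))
    have hDS : D ≤ P ⊓ S := hlt1.le.trans hPS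
    set D' := cj x⁻¹ D with hD'
    set R' := cj x⁻¹ R with hR'
    have hR's : IsSyl p R' ⊤ := hsylcj _ _ hR
    have hcardD' : Nat.card D' = Nat.card D := card_cj _ _
    have hchain1 : Chain p P (D : Set G) x := hx1.mono hDS
    have hD'P : D' ≤ P := by rw [← hx2, hD', cj_le_cj]; exact hDS.trans inf_le_right
    have hD'R' : D' < R' := by rw [hD', hR', cj_lt_cj]; exact hDR
    have hPN : IsSyl p (P ⊓ Subgroup.normalizer (D' : Set G)) (Subgroup.normalizer (D' : Set G)) := by
      have h1 : IsSyl p (cj x⁻¹ T) (Subgroup.normalizer (D' : Set G)) := by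
        have := hT.cj x⁻¹
        rwa [cj_normalizer] at this
      have h2 : cj x⁻¹ T ≤ P := by rw [← hx2, cj_le_cj]; exact hTS
      have h3 := h1.eq_of_le (hP.isPGroup.to_le (inf_le_left : P ⊓ Subgroup.normalizer (D' : Set G) ≤ P))
        (le_inf h2 h1.le) inf_le_right
      rw [h3]; exact h1
    have hfin : ∀ y : G, Chain p P (D' : Set G) y → cj y⁻¹ R' = P →
        ∃ x : G, Chain p P (D : Set G) x ∧ cj x⁻¹ R = P := by
      intro y hy1 hy2
      refine ⟨x * y, hchain1.trans' hy1, ?_⟩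
      rw [mul_inv_rev, ← cj_cj]; exact hy2
    by_cases hA : Nat.card D < Nat.card (P ⊓ R' : Subgroup G)
    · obtain ⟨y, hy1, hy2⟩ := IH R' hR's hA
      exact hfin y (hy1.mono (le_inf hD'P hD'R'.le)) hy2
    -- case B
    have hPR' : D' = P ⊓ R' := by
      apply Subgroup.eq_of_le_of_card_ge (le_inf hD'P hD'R'.le)
      rw [hcardD']; omega
    have hlt2 := lt_inf_normalizer_of_isPGroup hR's.isPGroup hD'R'
    set M := R' ⊓ Subgroup.normalizer (D' : Set G) with hM
    have hcardM : Nat.card D < Nat.card M := by rw [← hcardD']; exact card_lt_of_lt hlt2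
    obtain ⟨U, hU, hMU⟩ := exists_isSyl_ge (p := p) (Q := M) (H := Subgroup.normalizer (D' : Set G))
      (hR's.isPGroup.to_le inf_le_left) inf_le_right
    obtain ⟨V, hV, hUV⟩ := exists_isSyl_ge (p := p) (Q := U) (H := ⊤) hU.isPGroup le_top
    have hD'V : D' ≤ V := hlt2.le.trans (hMU.trans hUV)
    by_cases hB : Nat.card D < Nat.card (P ⊓ V : Subgroup G)
    · obtain ⟨w, hw1, hw2⟩ := IH V hV hB
      have hw3 : Chain p P (D' : Set G) w := hw1.mono (le_inf hD'P hD'V)
      have hw4 : cj w⁻¹ M ≤ P ⊓ cj w⁻¹ R' := by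
        apply le_inf
        · rw [← hw2, cj_le_cj]; exact hMU.trans hUV
        · rw [cj_le_cj]; exact inf_le_left
      obtain ⟨u, hu1, hu2⟩ := IH (cj w⁻¹ R') (hsylcj _ _ hR's) (by
        rw [← card_cj w⁻¹ M] at hcardM
        exact lt_of_lt_of_le hcardM (Nat.le_of_dvd Nat.card_pos (Subgroup.card_dvd_of_le hw4)))
      apply hfin (w * u)
      · apply hw3.trans'
        apply hu1.mono
        have h5 : cj w⁻¹ D' ≤ cj w⁻¹ M := by rw [cj_le_cj]; exact hlt2.le
        exact h5.trans hw4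
      · rw [mul_inv_rev, ← cj_cj]; exact hu2
    · have hPV : P ⊓ V = D' := by
        symm
        apply Subgroup.eq_of_le_of_card_ge (le_inf hD'P hD'V)
        rw [hcardD']; omega
      obtain ⟨z, hz, hzU⟩ := hPN.exists_conj_eq hU
      have hVN : IsSyl p (V ⊓ Subgroup.normalizer (D' : Set G)) (Subgroup.normalizer (D' : Set G)) := by
        have h3 := hU.eq_of_le (hV.isPGroup.to_le (inf_le_left : V ⊓ Subgroup.normalizer (D' : Set G) ≤ V))
          (le_inf hUV hU.le) inf_le_right
        rw [h3]; exact hU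
      have htame : Tame p P V := by
        unfold Tame
        rw [hPV]
        exact ⟨hPN.not_dvd, hVN.not_dvd⟩
      have hzD' : cj z⁻¹ D' = D' := mem_normalizer_iff_cj.1 (Subgroup.inv_mem _ hz)
      have hw4 : cj z⁻¹ M ≤ P ⊓ cj z⁻¹ R' := by
        apply le_inf
        · have h6 : cj z⁻¹ M ≤ cj z⁻¹ U := by rw [cj_le_cj]; exact hMU
          rw [hzU, cj_inv_cj] at h6
          exact h6.trans inf_le_left
        · rw [cj_le_cj]; exact inf_le_left
      obtain ⟨u, hu1, hu2⟩ := IH (cj z⁻¹ R') (hsylcj _ _ hR's) (by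
        rw [← card_cj z⁻¹ M] at hcardM
        exact lt_of_lt_of_le hcardM (Nat.le_of_dvd Nat.card_pos (Subgroup.card_dvd_of_le hw4)))
      apply hfin (z * u)
      · apply Chain.cons _ V z u hV htame
        · rw [hPV]; exact hz
        · rw [hPV]
        · rw [← coe_cj_inv]
          apply hu1.mono
          have h5 : cj z⁻¹ D' ≤ cj z⁻¹ M := by rw [cj_le_cj]; exact hlt2.le
          exact h5.trans hw4
      · rw [mul_inv_rev, ← cj_cj]; exact hu2

/-- Alperin's fusion theorem with chains. -/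
theorem exists_chain [Finite G] {p : ℕ} [hp : Fact p.Prime] (P : Subgroup G) (hP : IsSyl p P ⊤)
    (A : Set G) (g : G) (hA : A ⊆ P) (hAg : (fun a => g⁻¹ * a * g) '' A ⊆ P) : Chain p P A g := by
  have hR : IsSyl p (cj g P) ⊤ := by
    have := hP.cj g
    rwa [cj_top] at this
  obtain ⟨x, hx1, hx2⟩ := main P hP (Nat.card P) (cj g P) hR (by omega)
  have hAR : A ⊆ ((P ⊓ cj g P : Subgroup G) : Set G) := by
    intro a ha
    refine ⟨hA ha, ?_⟩
    show a ∈ cj g P
    rw [mem_cj]
    exact hAg ⟨a, ha, rfl⟩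
  have h1 : Chain p P A x := hx1.mono hAR
  have hy : x⁻¹ * g ∈ Subgroup.normalizer (P : Set G) := by
    rw [mem_normalizer_iff_cj, ← cj_cj]; exact hx2
  have hPP : P ⊓ P = P := inf_idem P
  have htame : Tame p P P := by
    unfold Tame
    rw [hPP]
    have h5 : P ⊓ Subgroup.normalizer (P : Set G) = P := inf_eq_left.2 Subgroup.le_normalizer
    rw [h5]
    have h6 := (hP.of_le_of_le (K := Subgroup.normalizer (P : Set G)) Subgroup.le_normalizer le_top).not_dvd
    exact ⟨h6, h6⟩
  have h2 : Chain p P ((fun a => x⁻¹ * a * x) '' A) (x⁻¹ * g * 1) := by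
    apply Chain.cons _ P (x⁻¹ * g) 1 hP htame
    · rw [hPP]; exact hy
    · rw [hPP]
      rintro _ ⟨a, ha, rfl⟩
      have h7 : (x⁻¹ * a * x) ∈ cj x⁻¹ (cj g P) := by
        rw [mem_cj, mem_cj]
        have := hAg ⟨a, ha, rfl⟩
        simpa [mul_assoc] using this
      rw [hx2] at h7
      exact h7
    · apply Chain.nil
      rintro _ ⟨_, ⟨a, ha, rfl⟩, rfl⟩
      have := hAg ⟨a, ha, rfl⟩
      simpa [mul_assoc] using this
  have h3 := h1.trans h2
  have h4 : x * (x⁻¹ * g * 1) = g := by group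
  rwa [h4] at h3

/-- Unpacking a chain. -/
theorem Chain.unpack [Finite G] {p : ℕ} [hp : Fact p.Prime] (P : Sylow p G) {A : Set G} {g : G}
    (h : Chain p (P : Subgroup G) A g) : ∃ (n : ℕ) (Q : Fin n → Sylow p G) (x : Fin n → G),
      (List.ofFn x).prod = g ∧
      (∀ i : Fin n, x i ∈ Subgroup.normalizer ((((P : Subgroup G) ⊓ (Q i : Subgroup G)) : Subgroup G) : Set G) ∧
        Tame p (P : Subgroup G) (Q i : Subgroup G)) ∧
      (∀ h : 0 < n, A ⊆ (((P : Subgroup G) ⊓ (Q ⟨0, h⟩ : Subgroup G) : Subgroup G) : Set G)) ∧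
      ∀ i : Fin n, ∀ h : i.val + 1 < n,
        (fun a => (((List.ofFn x).take (i.val + 1)).prod)⁻¹ * a * ((List.ofFn x).take (i.val + 1)).prod) '' A ⊆
          (((P : Subgroup G) ⊓ (Q ⟨i.val + 1, h⟩ : Subgroup G) : Subgroup G) : Set G) := by
  induction h with
  | nil A hA =>
    refine ⟨0, fun i => i.elim0, fun i => i.elim0, by simp, fun i => i.elim0, fun h => absurd h (lt_irrefl 0), fun i => i.elim0⟩
  | cons A R x₀ g h1 h2 h3 h4 _ ih =>
    obtain ⟨n, Q, x, hprod, hmem, h0, hstep⟩ := ih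
    refine ⟨n + 1, Fin.cons h1.toSylowTop Q, Fin.cons x₀ x, ?_, ?_, ?_, ?_⟩
    · rw [List.ofFn_cons, List.prod_cons, hprod]
    · intro i
      refine Fin.cases ?_ ?_ i
      · exact ⟨h3, h2⟩
      · intro j
        exact hmem j
    · intro _
      exact h4
    · intro i h
      rcases i with ⟨i, hi⟩
      rcases i with _ | i
      · have hn : 0 < n := by simpa using h
        have := h0 hn
        rintro _ ⟨a, ha, rfl⟩
        have h5 := this ⟨a, ha, rfl⟩
        simp only [List.ofFn_cons, Nat.zero_add, List.take_succ_cons, List.take_zero, List.prod_cons,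
          List.prod_nil, mul_one]
        exact h5
      · have hi' : i < n := by omega
        have h' : i + 1 < n := by simpa using h
        have := hstep ⟨i, hi'⟩ h'
        rintro _ ⟨a, ha, rfl⟩
        have h5 := this ⟨x₀⁻¹ * a * x₀, ⟨a, ha, rfl⟩, rfl⟩
        simp only [List.ofFn_cons, List.take_succ_cons, List.prod_cons]
        have h6 : (x₀ * (List.take (i + 1) (List.ofFn x)).prod)⁻¹ * a * (x₀ * (List.take (i + 1) (List.ofFn x)).prod)
          = ((List.take (i + 1) (List.ofFn x)).prod)⁻¹ * (x₀⁻¹ * a * x₀) * (List.take (i + 1) (List.ofFn x)).prod := by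
          group
        rw [h6]
        exact h5

end H3.Alperin
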